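import Mathlib

set_option autoImplicit false

namespace H87.Spc

/-- Every non-central `p`-element has a solvable centraliser. -/
def P (p : ℕ) (K : Type*) [Group K] : Prop :=
  ∀ x : K, x ∉ Subgroup.center K → (∃ k : ℕ, orderOf x = p ^ k) →
    Group.IsSolvable (Subgroup.centralizer ({x} : Set K))

/-- A subgroup fixing a non-zero vector is solvable. -/
def Hs {p : ℕ} {A V : Type*} [Group A] [AddCommGroup V] [Module (ZMod p) V]
    (ρ : Representation (ZMod p) A V) : Prop :=
  ∀ v : V, v ≠ 0 → ∀ S : Subgroup A, (∀ g ∈ S, ρ g v = v) → Group.IsSolvable S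

theorem eqns_spc : True := by
  have := @P.eq_1.{0}
  have := @Hs.eq_1.{0,0}
  trivial

end H87.Spc
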