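import Mathlib
import Cfsg.Agent.Lib.CGT.Net
import Cfsg.Agent.Lib.SPC.Def

/-!
# Certificates in permutation modules

Letters name elements of an alternating group, words are products of letters.  A rule is a list of pairs
(word, scalar); it is valid when only the zero vector is an eigenvector for all its words with these scalars.
A certificate derives a new valid rule from known ones by a computation in a permutation module.
-/

set_option autoImplicit false

namespace H87.Spc

open H54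

abbrev Wd := List ℕ
abbrev Vc := List (ℕ × ℕ)
abbrev Rl := List (Wd × ℕ)
abbrev Cb := List (ℕ × Wd × ℕ)

/-- entry `j` of a list of lists -/
noncomputable def ntl {α : Type} (l : List (List α)) (j : ℕ) : List α :=
  List.rec (motive := fun _ => ℕ → List α) (fun _ => [])
    (fun a _ ih j => Nat.rec (motive := fun _ => List α) a (fun k _ => ih k) j) l j

theorem ntl_mem {α : Type} (l : List (List α)) : ∀ j, j < l.length → ntl l j ∈ l := by
  induction l with
  | nil => intro j h; simp at h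
  | cons a l ih =>
    intro j h
    cases j with
    | zero => exact List.mem_cons_self
    | succ j =>
      have : ntl (a :: l) (j + 1) = ntl l j := rfl
      rw [this]; exact List.mem_cons_of_mem _ (ih j (by simpa using h))

noncomputable def mem (l : List ℕ) (s : ℕ) : Bool := anyL (Nat.beq s) l

theorem mem_iff (l : List ℕ) (s : ℕ) : mem l s = true ↔ s ∈ l := by
  simp [mem, anyL_iff]

/-- the alphabet: `n` points, `g` letters, the table of images -/
structure Al where
  n : ℕ
  g : ℕ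
  T : ℕ

noncomputable def Al.pt (A : Al) (s j : ℕ) : ℕ :=
  sel (Nat.ble A.g s) j (Nat.land (Nat.shiftRight A.T (Nat.mul 4 (Nat.add (Nat.mul 16 s) j))) 15)

noncomputable def Al.wap (A : Al) (w : Wd) (j : ℕ) : ℕ :=
  List.rec (motive := fun _ => ℕ) j (fun s _ ih => force ih (A.pt s)) w

noncomputable def Al.eq4 (A : Al) (u v u' v' : Wd) : Bool :=
  allLt (fun i => Nat.beq (A.wap u (A.wap v i)) (A.wap u' (A.wap v' i))) A.n

def wd {G : Type*} [Group G] (gen : ℕ → G) (w : Wd) : G := (w.map gen).prod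

@[simp] theorem wd_nil {G : Type*} [Group G] (gen : ℕ → G) : wd gen [] = 1 := rfl
@[simp] theorem wd_cons {G : Type*} [Group G] (gen : ℕ → G) (s : ℕ) (w : Wd) :
    wd gen (s :: w) = gen s * wd gen w := by simp [wd]
theorem wd_append {G : Type*} [Group G] (gen : ℕ → G) (u w : Wd) :
    wd gen (u ++ w) = wd gen u * wd gen w := by simp [wd]

/-- the letters act on the points as the table says -/
def Al.Ok (A : Al) (gen : ℕ → alternatingGroup (Fin A.n)) : Prop :=
  ∀ (s : ℕ) (i : Fin A.n), (((gen s : alternatingGroup (Fin A.n)) : Equiv.Perm (Fin A.n)) i).val = A.pt s i.val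

theorem Al.Ok.wap {A : Al} {gen : ℕ → alternatingGroup (Fin A.n)} (h : A.Ok gen) (w : Wd) (i : Fin A.n) :
    (((wd gen w : alternatingGroup (Fin A.n)) : Equiv.Perm (Fin A.n)) i).val = A.wap w i.val := by
  induction w with
  | nil => rfl
  | cons s w ih =>
    have : A.wap (s :: w) i.val = A.pt s (A.wap w i.val) := rfl
    rw [this, ← ih, wd_cons, Subgroup.coe_mul, Equiv.Perm.mul_apply, h]

theorem Al.Ok.eq4 {A : Al} {gen : ℕ → alternatingGroup (Fin A.n)} (h : A.Ok gen) {u v u' v' : Wd}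
    (e : A.eq4 u v u' v' = true) : wd gen u * wd gen v = wd gen u' * wd gen v' := by
  rw [Al.eq4, allLt_iff] at e
  apply Subtype.ext
  ext i
  have := Nat.eq_of_beq_eq_true (e i.val i.isLt)
  rw [← h.wap v i, ← h.wap v' i, ← h.wap, ← h.wap] at this
  simpa [Equiv.Perm.mul_apply] using this

theorem Al.Ok.ne_one {A : Al} {gen : ℕ → alternatingGroup (Fin A.n)} (h : A.Ok gen) {u : Wd}
    (e : A.eq4 u [] [] [] = false) : wd gen u ≠ 1 := by
  intro h1
  have : A.eq4 u [] [] [] = true := by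
    rw [Al.eq4, allLt_iff]
    intro i hi
    have := h.wap u ⟨i, hi⟩
    rw [h1] at this
    have h2 : A.wap u (A.wap [] i) = A.wap [] (A.wap [] i) := this.symm
    rw [h2]; exact Nat.beq_refl _
  rw [this] at e; exact Bool.noConfusion e

/-- two transpositions -/
def sw {n : ℕ} (a b c d : Fin n) : alternatingGroup (Fin n) :=
  if h : a ≠ b ∧ c ≠ d then ⟨Equiv.swap a b * Equiv.swap c d, by
    rw [Equiv.Perm.mem_alternatingGroup, map_mul, Equiv.Perm.sign_swap h.1, Equiv.Perm.sign_swap h.2]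
    decide⟩ else 1

def el {n : ℕ} (l : List (Fin n × Fin n × Fin n × Fin n)) : alternatingGroup (Fin n) :=
  (l.map fun q => sw q.1 q.2.1 q.2.2.1 q.2.2.2).prod

def gn {n : ℕ} (l : List (List (Fin n × Fin n × Fin n × Fin n))) (s : ℕ) : alternatingGroup (Fin n) :=
  el (l.getD s [])

theorem ok_of (A : Al) (l : List (List (Fin A.n × Fin A.n × Fin A.n × Fin A.n))) (hl : l.length = A.g)
    (h : ∀ s : Fin A.g, ∀ i : Fin A.n,
      (((gn l s.val : alternatingGroup (Fin A.n)) : Equiv.Perm (Fin A.n)) i).val = A.pt s.val i.val) :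
    A.Ok (gn l) := by
  intro s i
  by_cases hs : s < A.g
  · exact h ⟨s, hs⟩ i
  · have h1 : gn l s = 1 := by
      rw [gn, List.getD_eq_default _ _ (by omega)]; rfl
    have h2 : Nat.ble A.g s = true := Nat.ble_eq_true_of_le (by omega)
    rw [h1, Al.pt, h2]; rfl

section Acc

def dg (a k : ℕ) : ℕ := Nat.land (Nat.shiftRight a (Nat.mul 3 k)) 7

noncomputable def upd (p a i c : ℕ) : ℕ :=
  force (dg a i) fun d => Nat.xor a (Nat.shiftLeft (Nat.xor d (Nat.mod (Nat.add d c) p)) (Nat.mul 3 i))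

theorem dg_eq (a k : ℕ) : dg a k = (a >>> (3 * k)) % 2 ^ 3 := by
  show (a >>> (3 * k)) &&& (2 ^ 3 - 1) = _
  exact Nat.and_two_pow_sub_one_eq_mod _ _

theorem dg_lt (a k : ℕ) : dg a k < 2 ^ 3 := by rw [dg_eq]; exact Nat.mod_lt _ (by norm_num)

theorem dg_xor (a b k : ℕ) : dg (a ^^^ b) k = dg a k ^^^ dg b k := by
  rw [dg_eq, dg_eq, dg_eq, Nat.shiftRight_xor_distrib, Nat.xor_mod_two_pow]

theorem dg_shl (e i k : ℕ) (he : e < 2 ^ 3) : dg (e <<< (3 * i)) k = if k = i then e else 0 := by
  rw [dg_eq]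
  apply Nat.eq_of_testBit_eq
  intro j
  rw [Nat.testBit_mod_two_pow, Nat.testBit_shiftRight, Nat.testBit_shiftLeft]
  by_cases hj : j < 3
  · by_cases h : k = i
    · subst h; simp [hj]
    · rw [if_neg h, Nat.zero_testBit]
      rcases Nat.lt_or_gt_of_ne h with h | h
      · have : ¬ (3 * k + j ≥ 3 * i) := by omega
        simp [this]
      · have : e.testBit (3 * k + j - 3 * i) = false :=
          Nat.testBit_eq_false_of_lt (lt_of_lt_of_le he (Nat.pow_le_pow_right (by norm_num) (by omega)))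
        simp [this]
  · have : (if k = i then e else 0).testBit j = false := by
      split_ifs
      · exact Nat.testBit_eq_false_of_lt (lt_of_lt_of_le he (Nat.pow_le_pow_right (by norm_num) (by omega)))
      · exact Nat.zero_testBit _
    simp [hj, this]

theorem dg_upd (p a i c k : ℕ) (hp : 0 < p) (hp8 : p ≤ 8) :
    dg (upd p a i c) k = if k = i then (dg a i + c) % p else dg a k := by
  have h1 : (dg a i + c) % p < 2 ^ 3 := lt_of_lt_of_le (Nat.mod_lt _ hp) hp8
  have : upd p a i c = a ^^^ ((dg a i ^^^ ((dg a i + c) % p)) <<< (3 * i)) := rfl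
  rw [this, dg_xor, dg_shl _ _ _ (Nat.xor_lt_two_pow (dg_lt _ _) h1)]
  split_ifs with h
  · subst h; rw [← Nat.xor_assoc, Nat.xor_self, Nat.zero_xor]
  · rw [Nat.xor_zero]

variable {V : Type*} [AddCommGroup V]

def vl (m : ℕ) (f : ℕ → V) (a : ℕ) : V := ∑ k ∈ Finset.range m, dg a k • f k

theorem vl_zero (m : ℕ) (f : ℕ → V) : vl m f 0 = 0 := by
  apply Finset.sum_eq_zero
  intro k _
  rw [dg_eq]; simp

theorem vl_upd {p m : ℕ} (hp : 0 < p) (hp8 : p ≤ 8) {f : ℕ → V} (hV : ∀ v : V, p • v = 0)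
    (hf : ∀ i, m ≤ i → f i = 0) (a i c : ℕ) : vl m f (upd p a i c) = vl m f a + c • f i := by
  by_cases hi : i < m
  · have hm : ∀ (x : ℕ) (v : V), (x % p) • v = x • v := by
      intro x v
      conv_rhs => rw [← Nat.mod_add_div x p, add_smul, mul_comm, mul_smul, hV, smul_zero, add_zero]
    have : c • f i = ∑ k ∈ Finset.range m, if k = i then c • f k else 0 := by
      rw [Finset.sum_ite_eq' (Finset.range m) i (fun k => c • f k), if_pos (Finset.mem_range.2 hi)]
    rw [this, vl, vl, ← Finset.sum_add_distrib]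
    apply Finset.sum_congr rfl
    intro k _
    rw [dg_upd _ _ _ _ _ hp hp8]
    split_ifs with h
    · subst h; rw [hm, add_smul]
    · rw [add_zero]
  · rw [hf i (by omega), smul_zero, add_zero]
    apply Finset.sum_congr rfl
    intro k hk
    have := Finset.mem_range.1 hk
    rw [dg_upd _ _ _ _ _ hp hp8, if_neg (by omega)]

def ev (f : ℕ → V) (x : Vc) : V := (x.map fun q => q.2 • f q.1).sum

end Acc

/-- a certificate -/
structure Ct where
  p : ℕ
  m : ℕ
  act : List ℕ
  hl : List ℕ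
  cl : List ℕ
  extra : Rl
  rules : List Rl
  tabs : List ℕ
  rs : List Wd
  eta : List (List Wd)
  bs : List Vc
  ri : List ℕ
  cbs : List (List Cb)
  fin : Cb

noncomputable def Ct.pi (C : Ct) (s i : ℕ) : ℕ :=
  sel (Nat.ble C.m i) i (Nat.land (Nat.shiftRight (nth C.tabs s) (Nat.mul 10 i)) 1023)

noncomputable def Ct.aw (C : Ct) (w : Wd) (i : ℕ) : ℕ :=
  List.rec (motive := fun _ => ℕ) i (fun s _ ih => force ih (C.pi s)) w

noncomputable def Ct.accV (C : Ct) (w : Wd) (c : ℕ) (x : Vc) (a : ℕ) : ℕ :=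
  List.rec (motive := fun _ => ℕ → ℕ) (fun a => a)
    (fun q _ ih a => force (C.aw w q.1) fun i => force (upd C.p a i (Nat.mul c q.2)) ih) x a

noncomputable def Ct.accC (C : Ct) (cb : Cb) (a : ℕ) : ℕ :=
  List.rec (motive := fun _ => ℕ → ℕ) (fun a => a)
    (fun t _ ih a => force (C.accV t.2.1 t.1 (ntl C.bs t.2.2) a) ih) cb a

noncomputable def Ct.okC (C : Ct) (b : ℕ) (cb : Cb) : Bool :=
  allL (fun t => band (allL (mem C.act) t.2.1) (Nat.ble (Nat.succ t.2.2) b)) cb

/-- `w x - c x + cb = 0` -/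
noncomputable def Ct.chkQ (C : Ct) (b : ℕ) (x : Vc) (q : Wd × ℕ) (cb : Cb) : Bool :=
  band (allL (mem C.act) q.1) (band (C.okC b cb)
    (Nat.beq (force (C.accV [] (Nat.mul (Nat.pred C.p) q.2) x 0) fun a =>
      force (C.accV q.1 1 x a) (C.accC cb)) 0))

noncomputable def Ct.chkR (C : Ct) (b : ℕ) (x : Vc) (R : Rl) (cs : List Cb) : Bool :=
  List.rec (motive := fun _ => List Cb → Bool) (fun _ => true)
    (fun q _ ih l => List.rec (motive := fun _ => Bool) false
      (fun cb ws _ => band (C.chkQ b x q cb) (ih ws)) l) R cs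

/-- the check of the vector number `j` -/
noncomputable def Ct.chkS (C : Ct) (j : ℕ) : Bool :=
  sel (Nat.ble (len C.extra) j)
    (band (Nat.ble (Nat.succ (nth C.ri j)) (len C.rules))
      (C.chkR j (ntl C.bs j) (ntl C.rules (nth C.ri j)) (ntl C.cbs j)))
    (anyL (fun q => band (allL (mem C.act) q.1)
      (Nat.beq (force (C.accV [] (Nat.mul (Nat.pred C.p) q.2) [(0, 1)] 0) fun a =>
        force (C.accV q.1 1 [(0, 1)] a) (C.accV [] (Nat.pred C.p) (ntl C.bs j))) 0)) C.extra)

noncomputable def Ct.chkT (C : Ct) (A : Al) (s : ℕ) : Bool :=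
  List.rec (motive := fun _ => List Wd → ℕ → Bool) (fun _ k => Nat.ble C.m k)
    (fun h _ ih r k => List.rec (motive := fun _ => Bool) false
      (fun w ws _ => band (force (C.pi s k) fun j => band (Nat.ble (Nat.succ j) C.m)
        (band (allL (mem C.hl) h) (A.eq4 [s] w (ntl C.rs j) h))) (force (Nat.succ k) (ih ws))) r)
    (ntl C.eta s) C.rs 0

noncomputable def Ct.chkF (C : Ct) (A : Al) : Bool :=
  band (Nat.ble 1 C.p) (band (Nat.ble C.p 8) (band (Nat.ble 1 C.m) (band (Nat.beq (len (ntl C.rs 0)) 0)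
    (band (allL (allL (mem C.act)) C.rs)
    (band (allL (fun s => allL (fun l => A.eq4 [s] [l] [l] [s]) C.cl) C.act)
    (band (C.okC (len C.bs) C.fin) (Nat.beq (force (C.accV [] 1 [(0, 1)] 0) (C.accC C.fin)) 0)))))))

def fx (l : List ℕ) : Rl := l.map fun s => ([s], 1)

def Valid {p : ℕ} {G V : Type*} [Group G] [AddCommGroup V] [Module (ZMod p) V]
    (ρ : Representation (ZMod p) G V) (gen : ℕ → G) (R : Rl) : Prop :=
  ∀ v : V, (∀ q ∈ R, ρ (wd gen q.1) v = q.2 • v) → v = 0

theorem eqns_chk : True := by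
  have := @wd.eq_1.{0}
  have := @Al.Ok.eq_1
  have := @sw.eq_1
  have := @el.eq_1
  have := @gn.eq_1
  have := @dg.eq_1
  have := @vl.eq_1.{0}
  have := @ev.eq_1.{0}
  have := @fx.eq_1
  have := @Valid.eq_1.{0,0}
  have := @ntl.eq_1
  have := @mem.eq_1
  have := @Al.pt.eq_1
  have := @Al.wap.eq_1
  have := @Al.eq4.eq_1
  have := @upd.eq_1
  have := @Ct.pi.eq_1
  have := @Ct.aw.eq_1
  have := @Ct.accV.eq_1
  have := @Ct.accC.eq_1
  have := @Ct.okC.eq_1
  have := @Ct.chkQ.eq_1
  have := @Ct.chkR.eq_1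
  have := @Ct.chkS.eq_1
  have := @Ct.chkT.eq_1
  have := @Ct.chkF.eq_1
  trivial

end H87.Spc
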