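import Mathlib
import Cfsg.Agent.Lib.SPC.Chk

/-! # Soundness of the permutation module certificates -/

set_option autoImplicit false

namespace H87.Spc

open H54
open scoped commutatorElement

section
variable {V : Type*} [AddCommGroup V]

@[simp] theorem ev_nil (f : ℕ → V) : ev f [] = 0 := rfl
@[simp] theorem ev_cons (f : ℕ → V) (q : ℕ × ℕ) (x : Vc) : ev f (q :: x) = q.2 • f q.1 + ev f x := by
  simp [ev]
end

variable {p : ℕ} {G V : Type*} [Group G] [AddCommGroup V] [Module (ZMod p) V]

theorem p_smul (v : V) : p • v = 0 := by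
  rw [← Nat.cast_smul_eq_nsmul (ZMod p), ZMod.natCast_self, zero_smul]

theorem pred_smul (hp : 0 < p) (c : ℕ) (v : V) : (Nat.pred p * c) • v = - (c • v) := by
  have h := p_smul (p := p) (c • v)
  have : p = Nat.pred p + 1 := (Nat.succ_pred_eq_of_pos hp).symm
  rw [mul_smul, eq_neg_iff_add_eq_zero, ← succ_nsmul, ← this, h]

/-- the frame in which a certificate is read -/
structure Fr (C : Ct) (ρ : Representation (ZMod p) G V) (gen : ℕ → G) (f : ℕ → V) : Prop where
  hp : C.p = p
  p0 : 0 < p
  p8 : p ≤ 8
  f0 : ∀ i, C.m ≤ i → f i = 0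
  tab : ∀ s ∈ C.act, ∀ i, ρ (gen s) (f i) = f (C.pi s i)

variable {C : Ct} {ρ : Representation (ZMod p) G V} {gen : ℕ → G} {f : ℕ → V}

theorem Fr.aw (h : Fr C ρ gen f) (w : Wd) (hw : allL (mem C.act) w = true) (i : ℕ) :
    f (C.aw w i) = ρ (wd gen w) (f i) := by
  rw [allL_iff] at hw
  induction w with
  | nil => simp; rfl
  | cons s w ih =>
    have : C.aw (s :: w) i = C.pi s (C.aw w i) := rfl
    rw [this, ← h.tab s ((mem_iff _ _).1 (hw s List.mem_cons_self)),
      ih (fun a ha => hw a (List.mem_cons_of_mem _ ha)), wd_cons, map_mul, Module.End.mul_apply]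

theorem Fr.accV (h : Fr C ρ gen f) (w : Wd) (hw : allL (mem C.act) w = true) (c : ℕ) (x : Vc) :
    ∀ a, vl C.m f (C.accV w c x a) = vl C.m f a + c • ρ (wd gen w) (ev f x) := by
  induction x with
  | nil => intro a; simp; rfl
  | cons q x ih =>
    intro a
    have : C.accV w c (q :: x) a = C.accV w c x (upd C.p a (C.aw w q.1) (c * q.2)) := rfl
    rw [this, ih, h.hp, vl_upd h.p0 h.p8 (p_smul (p := p)) h.f0, h.aw w hw, ev_cons, map_add, map_nsmul,
      smul_add, mul_smul, add_assoc]

theorem Fr.accC (h : Fr C ρ gen f) (b : ℕ) (hb : ∀ j < b, ev f (ntl C.bs j) = 0) (cb : Cb)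
    (hc : C.okC b cb = true) : ∀ a, vl C.m f (C.accC cb a) = vl C.m f a := by
  rw [Ct.okC, allL_iff] at hc
  induction cb with
  | nil => intro a; rfl
  | cons t cb ih =>
    intro a
    have : C.accC (t :: cb) a = C.accC cb (C.accV t.2.1 t.1 (ntl C.bs t.2.2) a) := rfl
    have ht := hc t List.mem_cons_self
    rw [band_eq_true] at ht
    rw [this, ih (fun a ha => hc a (List.mem_cons_of_mem _ ha)), h.accV _ ht.1,
      hb _ (Nat.le_of_ble_eq_true ht.2), map_zero, smul_zero, add_zero]

theorem Fr.chkQ (h : Fr C ρ gen f) (b : ℕ) (hb : ∀ j < b, ev f (ntl C.bs j) = 0) (x : Vc) (q : Wd × ℕ)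
    (cb : Cb) (hc : C.chkQ b x q cb = true) : ρ (wd gen q.1) (ev f x) = q.2 • ev f x := by
  simp only [Ct.chkQ, band_eq_true, force_eq] at hc
  obtain ⟨h1, h2, h3⟩ := hc
  have h4 := congrArg (vl C.m f) (Nat.eq_of_beq_eq_true h3)
  rw [h.accC b hb cb h2, h.accV _ h1, h.accV [] rfl, vl_zero, wd_nil, map_one, Module.End.one_apply,
    one_smul, zero_add, h.hp] at h4
  have h5 := pred_smul h.p0 q.2 (ev f x)
  rw [show Nat.pred p * q.2 = Nat.mul (Nat.pred p) q.2 from rfl] at h5
  rw [h5, neg_add_eq_zero] at h4
  exact h4.symm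

theorem Fr.chkR (h : Fr C ρ gen f) (b : ℕ) (hb : ∀ j < b, ev f (ntl C.bs j) = 0) (x : Vc) :
    ∀ (R : Rl) (cs : List Cb), C.chkR b x R cs = true → ∀ q ∈ R, ρ (wd gen q.1) (ev f x) = q.2 • ev f x
  | [], _, _ => by simp
  | _ :: _, [], e => Bool.noConfusion e
  | q :: R, cb :: cs, e => by
    have e' : band (C.chkQ b x q cb) (C.chkR b x R cs) = true := e
    rw [band_eq_true] at e'
    intro q' hq'
    rcases List.mem_cons.1 hq' with rfl | hq'
    · exact h.chkQ b hb x _ cb e'.1
    · exact Fr.chkR h b hb x R cs e'.2 q' hq'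

theorem ev_fixed (g : G) (hf : ∀ i, ρ g (f i) = f i) (x : Vc) : ρ g (ev f x) = ev f x := by
  induction x with
  | nil => simp
  | cons q x ih => rw [ev_cons, map_add, map_nsmul, hf, ih]

theorem wd_fixed (l : List ℕ) (v : V) (hv : ∀ s ∈ l, ρ (gen s) v = v) (w : Wd)
    (hw : allL (mem l) w = true) : ρ (wd gen w) v = v := by
  rw [allL_iff] at hw
  induction w with
  | nil => simp
  | cons s w ih =>
    rw [wd_cons, map_mul, Module.End.mul_apply, ih (fun a ha => hw a (List.mem_cons_of_mem _ ha)),
      hv s ((mem_iff _ _).1 (hw s List.mem_cons_self))]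

theorem wd_comm (l : List ℕ) (g : G) (hg : ∀ s ∈ l, gen s * g = g * gen s) (w : Wd)
    (hw : allL (mem l) w = true) : wd gen w * g = g * wd gen w := by
  rw [allL_iff] at hw
  induction w with
  | nil => simp
  | cons s w ih =>
    rw [wd_cons, mul_assoc, ih (fun a ha => hw a (List.mem_cons_of_mem _ ha)), ← mul_assoc,
      hg s ((mem_iff _ _).1 (hw s List.mem_cons_self)), mul_assoc]

theorem ntl_cons_succ {α : Type} (a : List α) (l : List (List α)) (j : ℕ) :
    ntl (a :: l) (j + 1) = ntl l j := rfl

theorem chkT_aux (C : Ct) (A : Al) (s : ℕ) : ∀ (E r : List Wd) (k : ℕ),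
    (List.rec (motive := fun _ => List Wd → ℕ → Bool) (fun _ k => Nat.ble C.m k)
      (fun h _ ih r k => List.rec (motive := fun _ => Bool) false
        (fun w ws _ => band (force (C.pi s k) fun j => band (Nat.ble (Nat.succ j) C.m)
          (band (allL (mem C.hl) h) (A.eq4 [s] w (ntl C.rs j) h))) (force (Nat.succ k) (ih ws))) r)
      E r k : Bool) = true →
    ∀ i, k + i < C.m → C.pi s (k + i) < C.m ∧ ∃ h, allL (mem C.hl) h = true ∧
      A.eq4 [s] (ntl r i) (ntl C.rs (C.pi s (k + i))) h = true
  | [], _, k, e => by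
    intro i hi
    have := Nat.le_of_ble_eq_true e
    omega
  | _ :: _, [], _, e => Bool.noConfusion e
  | h :: E, w :: r, k, e => by
    intro i hi
    obtain ⟨e1, e2⟩ := (band_eq_true _ _).1 e
    cases i with
    | zero =>
      simp only [force_eq, band_eq_true] at e1
      exact ⟨Nat.le_of_ble_eq_true e1.1, h, e1.2.1, e1.2.2⟩
    | succ i =>
      have := chkT_aux C A s E r (k + 1) e2 i (by omega)
      rw [show k + 1 + i = k + (i + 1) by omega] at this
      exact this

theorem ntl_mem_or {α : Type} (l : List (List α)) : ∀ j, ntl l j = [] ∨ ntl l j ∈ l := by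
  induction l with
  | nil => exact fun _ => Or.inl rfl
  | cons a l ih =>
    intro j
    cases j with
    | zero => exact Or.inr List.mem_cons_self
    | succ j => exact (ih j).imp id (List.mem_cons_of_mem _)

theorem mem_fx {l : List ℕ} {s : ℕ} (h : s ∈ l) : (([s], 1) : Wd × ℕ) ∈ fx l :=
  List.mem_map.2 ⟨s, h, rfl⟩

theorem cert {p : ℕ} {V : Type*} [AddCommGroup V] [Module (ZMod p) V] {A : Al}
    {gen : ℕ → alternatingGroup (Fin A.n)} (hA : A.Ok gen)
    {ρ : Representation (ZMod p) (alternatingGroup (Fin A.n)) V} (C : Ct) (hp : C.p = p)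
    (hF : C.chkF A = true) (hT : allL (C.chkT A) C.act = true) (hS : allLt C.chkS (len C.bs) = true)
    (hR : ∀ R ∈ C.rules, Valid ρ gen (R ++ fx C.cl)) : Valid ρ gen (fx C.hl ++ (C.extra ++ fx C.cl)) := by
  intro v hv
  simp only [Ct.chkF, band_eq_true, force_eq] at hF
  obtain ⟨p0, p8, m0, r0, hr, hcm, hfin, hz⟩ := hF
  have p0 := Nat.le_of_ble_eq_true p0
  have p8 := Nat.le_of_ble_eq_true p8
  have m0 := Nat.le_of_ble_eq_true m0
  have r0 : ntl C.rs 0 = [] := by
    have := Nat.eq_of_beq_eq_true r0
    rw [len_eq] at this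
    exact List.length_eq_zero_iff.1 this
  have hH : ∀ s ∈ C.hl, ρ (gen s) v = v := fun s hs => by
    simpa using hv _ (List.mem_append_left _ (mem_fx hs))
  have hL : ∀ s ∈ C.cl, ρ (gen s) v = v := fun s hs => by
    simpa using hv _ (List.mem_append_right _ (List.mem_append_right _ (mem_fx hs)))
  let f : ℕ → V := fun k => if k < C.m then ρ (wd gen (ntl C.rs k)) v else 0
  have f0 : f 0 = v := by simp only [f]; rw [if_pos (by omega), r0]; simp
  have fr : Fr C ρ gen f := by
    refine ⟨hp, by omega, by omega, fun i hi => if_neg (by omega), ?_⟩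
    intro s hs i
    by_cases hi : i < C.m
    · obtain ⟨h1, h, h2, h3⟩ := chkT_aux C A s _ _ 0 ((allL_iff _ _).1 hT s hs) i (by omega)
      rw [zero_add] at h1 h3
      have h4 := hA.eq4 h3
      simp only [f]
      rw [if_pos hi, if_pos h1, ← Module.End.mul_apply, ← map_mul]
      rw [wd_cons, wd_nil, mul_one] at h4
      rw [h4, map_mul, Module.End.mul_apply, wd_fixed C.hl v hH h h2]
    · have h2 : Nat.ble C.m i = true := Nat.ble_eq_true_of_le (by omega)
      have : C.pi s i = i := by rw [Ct.pi, h2]; rfl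
      simp only [f]
      rw [this, if_neg hi, map_zero]
  have fL : ∀ s ∈ C.cl, ∀ i, ρ (gen s) (f i) = f i := by
    intro l hl i
    simp only [f]
    split_ifs
    · have hw : allL (mem C.act) (ntl C.rs i) = true := by
        rcases ntl_mem_or C.rs i with e | e
        · rw [e]; rfl
        · exact (allL_iff _ _).1 hr _ e
      have := wd_comm (gen := gen) C.act (gen l) (fun s hs => by
        have := hA.eq4 ((allL_iff _ _).1 ((allL_iff _ _).1 hcm s hs) l hl)
        simpa using this) _ hw
      rw [← Module.End.mul_apply, ← map_mul, ← this, map_mul, Module.End.mul_apply, hL l hl]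
    · exact map_zero _
  have e01 : ev f [(0, 1)] = v := by simp [f0]
  have hB : ∀ b, b ≤ len C.bs → ∀ j < b, ev f (ntl C.bs j) = 0 := by
    intro b
    induction b with
    | zero => intro _ j hj; omega
    | succ b ih =>
      intro hb j hj
      have ih := ih (by omega)
      by_cases hjb : j < b
      · exact ih j hjb
      obtain rfl : j = b := by omega
      have hc := (allLt_iff _ _).1 hS j (by omega)
      rw [Ct.chkS] at hc
      cases hx : Nat.ble (len C.extra) j
      · rw [hx, sel_false, anyL_iff] at hc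
        obtain ⟨q, hq, hc⟩ := hc
        simp only [band_eq_true, force_eq] at hc
        have h4 := congrArg (vl C.m f) (Nat.eq_of_beq_eq_true hc.2)
        have h5 := pred_smul fr.p0 q.2 v
        have h6 := pred_smul fr.p0 1 (ev f (ntl C.bs j))
        rw [show Nat.pred p * q.2 = Nat.mul (Nat.pred p) q.2 from rfl] at h5
        rw [mul_one, one_smul] at h6
        rw [fr.accV [] rfl, fr.accV _ hc.1, fr.accV [] rfl, vl_zero, wd_nil, map_one,
          Module.End.one_apply, Module.End.one_apply, one_smul, zero_add, fr.hp, e01,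
          hv q (List.mem_append_right _ (List.mem_append_left _ hq)), h5, h6, neg_add_cancel, zero_add,
          neg_eq_zero] at h4
        exact h4
      · rw [hx, sel_true, band_eq_true] at hc
        have hm := ntl_mem C.rules _ (by
          have := Nat.le_of_ble_eq_true hc.1
          rw [len_eq] at this; exact this)
        apply hR _ hm
        intro q hq
        rcases List.mem_append.1 hq with hq | hq
        · exact fr.chkR j ih _ _ _ hc.2 q hq
        · obtain ⟨s, hs, rfl⟩ := List.mem_map.1 hq
          simpa using ev_fixed (ρ := ρ) (gen s) (fL s hs) _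
  have h4 := congrArg (vl C.m f) (Nat.eq_of_beq_eq_true hz)
  rw [fr.accC _ (hB _ le_rfl) _ hfin, fr.accV [] rfl, vl_zero, e01] at h4
  simpa using h4

/-- transport of a rule by conjugation -/
theorem conj {p : ℕ} {V : Type*} [AddCommGroup V] [Module (ZMod p) V] {A : Al}
    {gen : ℕ → alternatingGroup (Fin A.n)} (hA : A.Ok gen)
    {ρ : Representation (ZMod p) (alternatingGroup (Fin A.n)) V} {R₀ : Rl} (h : Valid ρ gen R₀) (g : Wd) (R : Rl)
    (e : allL (fun q₀ => anyL (fun q => band (Nat.beq q.2 q₀.2) (A.eq4 q.1 g g q₀.1)) R) R₀ = true) :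
    Valid ρ gen R := by
  intro v hv
  have : ρ (wd gen g)⁻¹ v = 0 := by
    apply h
    intro q₀ hq₀
    obtain ⟨q, hq, e⟩ := (anyL_iff _ _).1 ((allL_iff _ _).1 e q₀ hq₀)
    rw [band_eq_true] at e
    have e2 := hA.eq4 e.2
    have e3 : wd gen q₀.1 * (wd gen g)⁻¹ = (wd gen g)⁻¹ * wd gen q.1 := by
      rw [eq_inv_mul_iff_mul_eq, ← mul_assoc, ← e2, mul_inv_cancel_right]
    rw [← Module.End.mul_apply, ← map_mul, e3, map_mul, Module.End.mul_apply, hv q hq, map_nsmul,
      Nat.eq_of_beq_eq_true e.1]
  have h2 := congrArg (ρ (wd gen g)) this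
  rwa [← Module.End.mul_apply, ← map_mul, mul_inv_cancel, map_one, map_zero] at h2

theorem perfect_pair {Γ : Type*} [Group Γ] [Group.IsSolvable Γ] (a b : Γ) (U W U' W' : List Bool)
    (ha : a * ((W.map fun t => cond t a b).prod * (U.map fun t => cond t a b).prod) =
      (U.map fun t => cond t a b).prod * (W.map fun t => cond t a b).prod)
    (hb : b * ((W'.map fun t => cond t a b).prod * (U'.map fun t => cond t a b).prod) =
      (U'.map fun t => cond t a b).prod * (W'.map fun t => cond t a b).prod) : a = 1 := by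
  have key : ∀ k, a ∈ derivedSeries Γ k ∧ b ∈ derivedSeries Γ k := by
    intro k
    induction k with
    | zero => exact ⟨Subgroup.mem_top _, Subgroup.mem_top _⟩
    | succ k ih =>
      have hw : ∀ X : List Bool, (X.map fun t => cond t a b).prod ∈ derivedSeries Γ k := by
        intro X
        apply Subgroup.list_prod_mem
        intro x hx
        obtain ⟨t, _, rfl⟩ := List.mem_map.1 hx
        cases t
        · exact ih.2
        · exact ih.1
      have hc : ∀ x u w : Γ, x * (w * u) = u * w → x = ⁅u, w⁆ := by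
        intro x u w e
        rw [commutatorElement_def, mul_assoc, ← mul_inv_rev, ← e, mul_inv_cancel_right]
      rw [derivedSeries_succ]
      constructor
      · rw [hc _ _ _ ha]; exact Subgroup.commutator_mem_commutator (hw _) (hw _)
      · rw [hc _ _ _ hb]; exact Subgroup.commutator_mem_commutator (hw _) (hw _)
  obtain ⟨k, hk⟩ := (inferInstance : Group.IsSolvable Γ).solvable
  have := (key k).1
  rw [hk] at this
  exact Subgroup.mem_bot.1 this

theorem wd_flat {G : Type*} [Group G] (gen : ℕ → G) (a b : Wd) (X : List Bool) :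
    wd gen (X.flatMap fun t => cond t a b) = (X.map fun t => cond t (wd gen a) (wd gen b)).prod := by
  induction X with
  | nil => rfl
  | cons t X ih => rw [List.flatMap_cons, wd_append, ih]; cases t <;> simp

/-- two words generating a non-trivial perfect group -/
theorem ns {p : ℕ} {V : Type*} [AddCommGroup V] [Module (ZMod p) V] {A : Al}
    {gen : ℕ → alternatingGroup (Fin A.n)} (hA : A.Ok gen)
    {ρ : Representation (ZMod p) (alternatingGroup (Fin A.n)) V} (h : Hs ρ) (a b : Wd) (U W U' W' : List Bool)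
    (e0 : A.eq4 a [] [] [] = false)
    (e1 : A.eq4 a ((W ++ U).flatMap fun t => cond t a b) (U.flatMap fun t => cond t a b)
      (W.flatMap fun t => cond t a b) = true)
    (e2 : A.eq4 b ((W' ++ U').flatMap fun t => cond t a b) (U'.flatMap fun t => cond t a b)
      (W'.flatMap fun t => cond t a b) = true) : Valid ρ gen [(a, 1), (b, 1)] := by
  intro v hv
  by_contra hne
  have h1 := hA.eq4 e1
  have h2 := hA.eq4 e2
  rw [List.flatMap_append, wd_append, wd_flat, wd_flat] at h1 h2
  let S := Subgroup.closure ({wd gen a, wd gen b} : Set (alternatingGroup (Fin A.n)))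
  have hS : Group.IsSolvable S := by
    apply h v hne
    intro g hg
    induction hg using Subgroup.closure_induction with
    | mem x hx =>
      rcases hx with rfl | rfl
      · simpa using hv (a, 1) (by simp)
      · simpa using hv (b, 1) (by simp)
    | one => simp
    | mul x y _ _ hx hy => rw [map_mul, Module.End.mul_apply, hy, hx]
    | inv x _ hx =>
      conv_lhs => rw [← hx]
      rw [← Module.End.mul_apply, ← map_mul, inv_mul_cancel, map_one, Module.End.one_apply]
  let a' : S := ⟨wd gen a, Subgroup.subset_closure (by simp)⟩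
  let b' : S := ⟨wd gen b, Subgroup.subset_closure (by simp)⟩
  have hc : ∀ X : List Bool, (((X.map fun t => cond t a' b').prod : S) : alternatingGroup (Fin A.n)) =
      (X.map fun t => cond t (wd gen a) (wd gen b)).prod := by
    intro X
    induction X with
    | nil => rfl
    | cons t X ih => rw [List.map_cons, List.prod_cons, Subgroup.coe_mul, ih]; cases t <;> rfl
  have := perfect_pair a' b' U W U' W'
    (Subtype.ext (by simp only [Subgroup.coe_mul, hc]; exact h1))
    (Subtype.ext (by simp only [Subgroup.coe_mul, hc]; exact h2))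
  exact hA.ne_one e0 (congrArg Subtype.val this)

end H87.Spc
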