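import Mathlib
import Cfsg.Agent.Lib.SPC.Snd

set_option autoImplicit false
set_option maxRecDepth 100000

namespace H87.Spc

open H54

abbrev al2 : Al := ⟨9, 9, 487306339451071397398426727753515916525585165120312915740329353422880731264370273382260507641189217059182830612080531869089759748342503724711647994192216935607046194⟩

def al2g : ℕ → alternatingGroup (Fin 9) := gn
    [[(0, 2, 1, 3)], [(0, 1, 4, 5)], [(0, 4, 1, 5), (2, 6, 3, 7)], [(0, 1, 1, 2), (4, 5, 5, 6)], [(0, 1, 1, 2), (4, 6, 5, 6)], [(0, 1, 1, 2), (2, 3,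
    3, 4), (4, 5, 5, 6)], [(5, 6, 6, 7)], [(0, 1, 1, 2), (2, 3, 3, 4), (4, 5, 5, 6), (6, 7, 7, 8)], [(0, 1, 1, 2)]]

theorem al2ok : al2.Ok al2g := ok_of al2 _ rfl (by decide +kernel)

variable {V : Type*} [AddCommGroup V] [Module (ZMod 2) V]
  {ρ : Representation (ZMod 2) (alternatingGroup (Fin 9)) V}

theorem n2a (h : Hs ρ) : Valid ρ al2g [([5, 5, 6, 5, 6, 5, 5, 5, 5], 1), ([5, 5, 6, 5, 6, 5, 6, 5, 6, 5, 5], 1)] :=
  ns al2ok h _ _ [false, false] [false, true, false, true] [true] [true, false, true, false]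
    (by decide +kernel) (by decide +kernel) (by decide +kernel)

theorem n2b (h : Hs ρ) : Valid ρ al2g [([5, 5, 6, 5, 6, 5, 6, 5, 6, 5, 5], 1), ([5, 5, 5, 6, 5, 6, 6, 5, 6, 6, 5, 6, 5], 1)] :=
  ns al2ok h _ _ [true, true, false, true] [false, true, false] [true, false, true, true] [true, false, true, true, false]
    (by decide +kernel) (by decide +kernel) (by decide +kernel)

theorem n2l0 (h : Hs ρ) : Valid ρ al2g [([5], 1), ([6, 5, 5, 6, 6, 5, 5, 6], 1)] :=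
  ns al2ok h _ _ [false, true, true, true, true, false, true, false] [true] [true, false, true, true, true, true] [true, false, true, true, true, true, false]
    (by decide +kernel) (by decide +kernel) (by decide +kernel)

def e13_rs : List Wd :=
    [[], [5], [5, 5], [5, 5, 5], [6, 5, 5], [5, 5, 5, 5], [6, 5, 5, 5], [5, 6, 5, 5], [6, 6, 5, 5], [6, 5, 5, 5, 5], [5, 6, 5, 5, 5], [6, 6, 5, 5,
    5], [5, 5, 6, 5, 5], [6, 5, 6, 5, 5], [5, 5, 6, 5, 5, 5], [5, 5, 5, 6, 5, 5], [6, 5, 5, 6, 5, 5], [5, 6, 5, 6, 5, 5], [6, 6, 5, 6, 5, 5], [5, 5,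
    5, 6, 5, 5, 5], [5, 5, 5, 5, 6, 5, 5], [5, 6, 5, 5, 6, 5, 5], [6, 6, 5, 5, 6, 5, 5], [6, 5, 6, 5, 6, 5, 5], [5, 5, 5, 5, 6, 5, 5, 5], [5, 5, 5,
    5, 5, 6, 5, 5], [5, 5, 6, 5, 5, 6, 5, 5], [5, 6, 6, 5, 5, 6, 5, 5], [6, 6, 5, 6, 5, 6, 5, 5], [5, 5, 5, 5, 5, 6, 5, 5, 5], [6, 5, 5, 5, 5, 6, 5,
    5, 5], [5, 5, 5, 6, 5, 5, 6, 5, 5], [6, 5, 5, 6, 5, 5, 6, 5, 5], [5, 5, 6, 6, 5, 5, 6, 5, 5], [5, 6, 5, 5, 5, 5, 6, 5, 5, 5]]

def e13_e5 : List Wd :=
    [[], [], [], [], [], [4, 3, 3, 2, 0], [], [], [3, 0, 2, 4, 0, 2, 1], [2, 4, 0, 3], [], [1, 0, 4, 2, 0, 3, 0], [], [], [], [], [], [3, 0, 2, 0,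
    1], [2, 1, 0, 3, 2], [], [], [], [], [3, 0, 2, 0, 1], [], [3, 3, 0, 2, 4], [], [], [2, 4, 0], [1, 0, 2, 0, 3, 3], [], [4, 3, 2, 0, 2, 1, 0], [4,
    0, 3, 2, 1, 0], [2, 4, 0, 2, 0, 3, 3], [4, 4, 0, 2]]

def e13_e6 : List Wd :=
    [[2, 0, 4, 3, 2], [2, 4, 3, 0, 2], [], [], [], [], [], [], [], [1, 4, 3, 1, 0], [0, 4, 3], [], [], [], [4, 3, 0], [4, 0], [], [], [], [0, 3, 0],
    [1, 4, 0, 3], [1, 4, 3, 1], [], [], [], [4, 3, 3], [], [4, 3], [], [4, 3, 3, 2, 0], [1, 0, 4, 3], [4, 1, 3, 2, 0], [1, 4, 3, 0, 2], [0, 3, 3, 2],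
    [4, 3, 3]]

def e13_fin : Cb :=
    [(1, [5], 0), (1, [5, 5, 5], 0), (1, [6, 5, 5, 5], 0), (1, [5, 6, 5, 5], 0), (1, [6, 6, 5, 5], 0), (1, [5, 5, 6, 5], 0), (1, [6, 5, 6, 5], 0),
    (1, [5, 5, 5, 5, 5], 0), (1, [6, 5, 5, 5, 5], 0), (1, [5, 6, 5, 5, 5], 0), (1, [], 1), (1, [5, 6], 1), (1, [5, 5, 6], 2), (1, [5], 3), (1, [5,
    5], 3), (1, [5, 5, 5], 3), (1, [5, 5, 5, 5], 3)]

def e13_cbs : List (List Cb) :=
    [[[], []], [[], []], [[], []], [[], []]]

def e13 : Ct where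
  p := 2
  m := 35
  act := [5, 6]
  hl := [0, 1, 2, 3, 4]
  cl := []
  extra := []
  rules :=
    [[([5, 5, 6, 5, 6, 5, 5, 5, 5], 1), ([5, 5, 6, 5, 6, 5, 6, 5, 6, 5, 5], 1)], [([5, 5, 6, 5, 6, 5, 6, 5, 6, 5, 5], 1), ([5, 5, 5, 6, 5, 6, 6, 5,
    6, 6, 5, 6, 5], 1)], [([5], 1), ([6, 5, 5, 6, 6, 5, 5, 6], 1)]]
  tabs :=
    [0, 0, 0, 0, 0, 35897223041568769204882899292871590065942311222101337416460187237450461315618070503729042866386330716161,
    65027030317671910293006952045856161285500649570909918218536218948017603622069925901579089690971418395648]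
  rs := e13_rs
  eta := [[], [], [], [], [], e13_e5, e13_e6]
  bs :=
    [[(0, 1), (1, 1), (14, 1), (25, 1), (27, 1)], [(4, 1), (7, 1), (9, 1), (12, 1), (15, 1), (20, 1), (25, 1)], [(6, 1), (10, 1), (14, 1), (19, 1),
    (23, 1), (24, 1), (29, 1)], [(3, 1), (5, 1), (8, 1), (18, 1), (20, 1), (21, 1), (22, 1), (28, 1), (32, 1), (34, 1)]]
  ri := [0, 2, 2, 1]
  cbs := e13_cbs
  fin := e13_fin

theorem e13_F : e13.chkF al2 = true := by decide +kernel
theorem e13_T : allL (e13.chkT al2) e13.act = true := by decide +kernel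
theorem e13_S : allLt e13.chkS (len e13.bs) = true := by decide +kernel

theorem e13_v (h : Hs ρ) : Valid ρ al2g (fx e13.hl ++ (e13.extra ++ fx e13.cl)) := by
  refine cert al2ok e13 rfl e13_F e13_T e13_S ?_
  simp only [e13, List.forall_mem_cons, List.not_mem_nil, false_imp_iff, implies_true, and_true]
  exact ⟨conj al2ok (n2a h) [] _ (by decide +kernel),
    conj al2ok (n2b h) [] _ (by decide +kernel),
    conj al2ok (n2l0 h) [] _ (by decide +kernel)⟩

theorem n2l1 (h : Hs ρ) : Valid ρ al2g [([8, 7, 7, 8, 7, 7, 8, 7, 7, 7, 7, 7], 1), ([7, 8, 8, 7, 8, 7, 7, 8, 7, 8, 7, 7, 8, 7], 1)] :=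
  ns al2ok h _ _ [false, true, true, true, true, false, true, false] [true] [true, false, true, true, true, true] [true, false, true, true, true, true, false]
    (by decide +kernel) (by decide +kernel) (by decide +kernel)

theorem n2l2 (h : Hs ρ) : Valid ρ al2g [([8, 7, 7, 8, 7, 7, 8, 7, 7, 7, 7, 7], 1), ([7, 7, 8, 8, 7, 8, 7, 7, 7, 8, 7, 7, 8], 1)] :=
  ns al2ok h _ _ [true, true, false, true, true] [false, true, true, true] [true, true, false, true, true, true, true] [true, false, true, true, true, false, true, true]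
    (by decide +kernel) (by decide +kernel) (by decide +kernel)

theorem n2e0 (h : Hs ρ) : Valid ρ al2g [([8, 7, 7, 8, 7, 7, 8, 7, 7, 7, 7, 7], 1), ([8, 7, 7, 8, 7, 7], 1)] :=
  ns al2ok h _ _ [true, true, true, false, true] [false, true, false, true, false] [true, false, true, true] [true, false, true, false, true, true, true, true, true]
    (by decide +kernel) (by decide +kernel) (by decide +kernel)

theorem n2e1 (h : Hs ρ) : Valid ρ al2g [([8, 7, 7, 8, 7, 7, 8, 7, 7, 7, 7, 7], 1), ([7, 7, 7, 7, 8, 7, 8, 7, 7, 7, 8, 7, 8], 1)] :=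
  ns al2ok h _ _ [false, true, true, false] [true, false, true, true] [true, false, true, true, true, true, true] [false, true, true, true, true, true, false, true, false]
    (by decide +kernel) (by decide +kernel) (by decide +kernel)

theorem eqns_m2a : True := by
  have := @al2g.eq_1
  have := @e13_rs.eq_1
  have := @e13_e5.eq_1
  have := @e13_e6.eq_1
  have := @e13_fin.eq_1
  have := @e13_cbs.eq_1
  have := @e13.eq_1
  trivial

end H87.Spc
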