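import Mathlib
import Cfsg.Agent.Lib.SPC.Def

set_option autoImplicit false

namespace H87.Spc

universe u

theorem mod_W (p : ℕ) [hp : Fact p.Prime] {K : Type u} [Group K] [Finite K] (N : Subgroup K) [hn : N.Normal]
    (hN : IsPGroup p N) (hne : N ≠ ⊥) : ∃ W : Subgroup K, W.Normal ∧ W ≤ N ∧
      W ≤ Subgroup.centralizer (N : Set K) ∧ (∀ v ∈ W, v ^ p = 1) ∧ W ≠ ⊥ := by
  let W : Subgroup K :=
    { carrier := {v | v ∈ N ∧ v ∈ Subgroup.centralizer (N : Set K) ∧ v ^ p = 1}
      one_mem' := ⟨one_mem _, one_mem _, one_pow _⟩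
      mul_mem' := fun {a b} ha hb => ⟨mul_mem ha.1 hb.1, mul_mem ha.2.1 hb.2.1, by
        rw [Commute.mul_pow (hb.2.1 a ha.1), ha.2.2, hb.2.2, one_mul]⟩
      inv_mem' := fun {a} ha => ⟨inv_mem ha.1, inv_mem ha.2.1, by rw [inv_pow, ha.2.2, inv_one]⟩ }
  refine ⟨W, ⟨fun v hv g => ⟨hn.conj_mem v hv.1 g,
    (inferInstance : (Subgroup.centralizer (N : Set K)).Normal).conj_mem v hv.2.1 g, by
      rw [conj_pow, hv.2.2, mul_one, mul_inv_cancel]⟩⟩, fun _ h => h.1, fun _ h => h.2.1,
    fun _ h => h.2.2, ?_⟩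
  haveI : Nontrivial N := (Subgroup.nontrivial_iff_ne_bot N).2 hne
  haveI := hN.center_nontrivial
  have hc : IsPGroup p (Subgroup.center N) := hN.to_subgroup _
  obtain ⟨z, hz⟩ := exists_prime_orderOf_dvd_card' (G := Subgroup.center N) p
    (hc.card_eq_or_dvd.resolve_left Finite.one_lt_card.ne')
  have h1 : ((z : N) : K) ∈ W := ⟨z.1.2, fun g hg =>
    congrArg Subtype.val (Subgroup.mem_center_iff.1 z.2 ⟨g, hg⟩), by
      have := pow_orderOf_eq_one z
      rw [hz] at this
      exact congrArg (fun y : Subgroup.center N => ((y : N) : K)) this⟩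
  intro e
  rw [e, Subgroup.mem_bot] at h1
  have : z = 1 := Subtype.ext (Subtype.ext h1)
  rw [this, orderOf_one] at hz
  exact hp.out.one_lt.ne hz

theorem mod_rep (p : ℕ) {A W : Type*} [Group A] [CommGroup W] [Module (ZMod p) (Additive W)]
    (φ : A →* MulAut W) : ∃ ρ : Representation (ZMod p) A (Additive W),
      ∀ a v, Additive.toMul (ρ a v) = φ a (Additive.toMul v) :=
  ⟨{ toFun := fun a => (MonoidHom.toAdditive (φ a).toMonoidHom).toZModLinearMap p
     map_one' := LinearMap.ext fun v => by rw [map_one]; rfl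
     map_mul' := fun a b => LinearMap.ext fun v => by rw [map_mul]; rfl }, fun _ _ => rfl⟩

theorem mod (p : ℕ) [Fact p.Prime] {A : Type*} [Group A] {K : Type u} [Group K] [Finite K]
    (π : K →* A) (hπ : Function.Surjective π) (hN : IsPGroup p π.ker) (hne : π.ker ≠ ⊥)
    (hZ : π.ker ⊓ Subgroup.center K = ⊥) (h : P p K) :
    ∃ (V : Type u) (_ : AddCommGroup V) (_ : Module (ZMod p) V) (ρ : Representation (ZMod p) A V),
      Hs ρ ∧ ∃ v : V, v ≠ 0 := by
  obtain ⟨W, hW, h1, h2, h3, h4⟩ := mod_W p π.ker hN hne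
  letI : CommGroup W := { (inferInstance : Group W) with
    mul_comm := fun a b => Subtype.ext (h2 b.2 a (h1 a.2)) }
  letI : Module (ZMod p) (Additive W) := AddCommGroup.zmodModule fun x =>
    Additive.toMul.injective (Subtype.ext (h3 _ (Additive.toMul x).2))
  have hk : π.ker ≤ (MulAut.conjNormal : K →* MulAut W).ker := fun g hg =>
    MulEquiv.ext fun w => Subtype.ext (by
      rw [MulAut.conjNormal_apply, h2 w.2 g hg, mul_inv_cancel_right]; rfl)
  let φ : A →* MulAut W := π.liftOfSurjective hπ ⟨_, hk⟩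
  have hφ : ∀ k, φ (π k) = MulAut.conjNormal k := fun k => π.liftOfRightInverse_comp_apply _ _ _ k
  obtain ⟨ρ, hρ⟩ := mod_rep p φ
  refine ⟨Additive W, inferInstance, inferInstance, ρ, fun v hv S hS => ?_, ?_⟩
  · have v1 : ((Additive.toMul v : W) : K) ≠ 1 := fun e => hv (Additive.toMul.injective (Subtype.ext e))
    have hs := h (Additive.toMul v : W) (fun hc => v1 (Subgroup.mem_bot.1 (hZ ▸ ⟨h1 (Additive.toMul v).2, hc⟩)))
      ⟨1, by rw [pow_one]; exact orderOf_eq_prime (h3 _ (Additive.toMul v).2) v1⟩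
    have hle : S.comap π ≤ Subgroup.centralizer {((Additive.toMul v : W) : K)} := fun k hk => by
      have e : φ (π k) (Additive.toMul v) = Additive.toMul v :=
        (hρ _ _).symm.trans (congrArg Additive.toMul (hS _ hk))
      rw [hφ] at e
      exact Subgroup.mem_centralizer_singleton_iff.2 (mul_inv_eq_iff_eq_mul.1 (congrArg Subtype.val e))
    haveI : Group.IsSolvable (S.comap π) :=
      Group.isSolvable_of_isSolvable_injective (Subgroup.inclusion_injective hle)
    exact Group.isSolvable_of_surjective (π.subgroupComap_surjective_of_surjective S hπ)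
  · obtain ⟨w, hw⟩ := Subgroup.ne_bot_iff_exists_ne_one.1 h4
    exact ⟨Additive.ofMul w, hw⟩

end H87.Spc
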