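import Mathlib
import Cfsg.Agent.Lib.SPC.Def
import Cfsg.Agent.S0022

set_option autoImplicit false

namespace H87.Spc

/-- An alternating group of degree five and a commuting element of order `p` on the other points. -/
theorem a5x (p m : ℕ) [Fact p.Prime] (hm : (p = 2 ∧ m = 4) ∨ (p ≠ 2 ∧ m = p)) :
    ∃ (x : alternatingGroup (Fin (m + 5))) (S : Subgroup (alternatingGroup (Fin (m + 5)))),
      orderOf x = p ∧ Nat.card S = 60 ∧ ¬ Group.IsSolvable S ∧ (∀ s ∈ S, s * x = x * s) ∧
        Subgroup.center (alternatingGroup (Fin (m + 5))) = ⊥ := by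
  have hp : p.Prime := Fact.out
  obtain ⟨x0, s0, o0⟩ : ∃ x0 : Equiv.Perm (Fin m), Equiv.Perm.sign x0 = 1 ∧ orderOf x0 = p := by
    rcases hm with ⟨rfl, rfl⟩ | ⟨h2, rfl⟩
    · exact ⟨Equiv.swap 0 1 * Equiv.swap 2 3, by decide, orderOf_eq_prime (by decide) (by decide)⟩
    · refine ⟨finRotate m, ?_, ?_⟩
      · rw [sign_finRotate]
        exact Even.neg_one_pow (Nat.Odd.sub_odd (hp.odd_of_ne_two h2) odd_one)
      · rw [(isCycle_finRotate_of_le hp.two_le).orderOf, support_finRotate_of_le hp.two_le]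
        simp
  let Θ : Equiv.Perm (Fin m) × Equiv.Perm (Fin 5) →* Equiv.Perm (Fin (m + 5)) :=
    (finSumFinEquiv (m := m) (n := 5)).permCongrHom.toMonoidHom.comp (Equiv.Perm.sumCongrHom _ _)
  have iΘ : Function.Injective Θ :=
    (finSumFinEquiv (m := m) (n := 5)).permCongrHom.injective.comp Equiv.Perm.sumCongrHom_injective
  have sΘ : ∀ a b, Equiv.Perm.sign (Θ (a, b)) = Equiv.Perm.sign a * Equiv.Perm.sign b := fun a b =>
    (Equiv.Perm.sign_permCongr _ _).trans (Equiv.Perm.sign_sumCongr a b)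
  let ι : alternatingGroup (Fin 5) →* alternatingGroup (Fin (m + 5)) :=
    (Θ.comp ((MonoidHom.inr _ _).comp (alternatingGroup (Fin 5)).subtype)).codRestrict _ fun a => by
      rw [Equiv.Perm.mem_alternatingGroup]
      exact (sΘ 1 a).trans (by rw [map_one, one_mul]; exact Equiv.Perm.mem_alternatingGroup.1 a.2)
  have hι : Function.Injective ι := fun a b h =>
    Subtype.ext (congrArg Prod.snd (iΘ (congrArg Subtype.val h)))
  have c5 : Nat.card (alternatingGroup (Fin 5)) = 60 := by
    rw [nat_card_alternatingGroup, Nat.card_fin]; rfl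
  refine ⟨⟨Θ (x0, 1), by rw [Equiv.Perm.mem_alternatingGroup, sΘ, s0, map_one, one_mul]⟩, ι.range, ?_,
    ?_, fun hs => ?_, ?_, alternatingGroup.center_eq_bot (by rw [Nat.card_fin]; omega)⟩
  · rw [← Subgroup.orderOf_coe, orderOf_injective Θ iΘ, Prod.orderOf_mk, orderOf_one, Nat.lcm_one_right,
      o0]
  · rw [← c5]; exact Nat.card_congr (MonoidHom.ofInjective hι).toEquiv.symm
  · have h1 : Group.IsSolvable (alternatingGroup (Fin 5)) :=
      Group.isSolvable_of_isSolvable_injective (f := (MonoidHom.ofInjective hι).toMonoidHom)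
        (MonoidHom.ofInjective hι).injective
    have h2 := IsSimpleGroup.comm_iff_isSolvable.2 h1
    have h3 : (⊤ : Subgroup (alternatingGroup (Fin 5))) = ⊥ :=
      le_bot_iff.1 (alternatingGroup.center_eq_bot (α := Fin 5) (by rw [Nat.card_fin]; omega) ▸
        fun a _ => Subgroup.mem_center_iff.2 fun g => h2 g a)
    rw [← Subgroup.card_top, h3, Subgroup.card_bot] at c5
    omega
  · rintro _ ⟨a, rfl⟩
    refine Subtype.ext ?_
    change Θ (1, a) * Θ (x0, 1) = Θ (x0, 1) * Θ (1, a)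
    rw [← map_mul, ← map_mul]
    simp

theorem p7_fin {p : ℕ} [hp : Fact p.Prime] {K A : Type*} [Group K] [Group A] (π : K →* A)
    (hπ : Function.Surjective π) (h : P p K) {S : Subgroup A} (hS : ¬ Group.IsSolvable S)
    (hZ : Subgroup.center A = ⊥) {c : K} (o : orderOf (π c) = p) (hc : ∃ k : ℕ, orderOf c = p ^ k)
    {T : Subgroup K} (h1 : T ≤ Subgroup.centralizer {c}) (h2 : S ≤ T.map π) : False := by
  have hs := h c (fun hz => by
    have : π c ∈ Subgroup.center A := Subgroup.mem_center_iff.2 fun g => by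
      obtain ⟨k, rfl⟩ := hπ g
      rw [← map_mul, ← map_mul, Subgroup.mem_center_iff.1 hz k]
    rw [hZ, Subgroup.mem_bot] at this
    rw [this, orderOf_one] at o
    exact hp.out.one_lt.ne o) hc
  haveI : Group.IsSolvable T := Group.isSolvable_of_isSolvable_injective (Subgroup.inclusion_injective h1)
  haveI : Group.IsSolvable (T.map π) := Group.isSolvable_of_surjective (π.subgroupMap_surjective T)
  exact hS (Group.isSolvable_of_isSolvable_injective (Subgroup.inclusion_injective h2))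

theorem base (p m : ℕ) [Fact p.Prime] (hm : (p = 2 ∧ m = 4) ∨ (p ≠ 2 ∧ m = p))
    {K : Type*} [Group K] (π : K →* alternatingGroup (Fin (m + 5))) (hπ : Function.Surjective π)
    (hk : π.ker = ⊥) (h : P p K) : False := by
  obtain ⟨x, S, o, -, hS, c, hZ⟩ := a5x p m hm
  have inj := π.ker_eq_bot_iff.1 hk
  obtain ⟨y, rfl⟩ := hπ x
  refine p7_fin π hπ h hS hZ o ⟨1, by rw [pow_one, ← o, orderOf_injective π inj]⟩ (T := S.comap π)
    (fun t ht => Subgroup.mem_centralizer_singleton_iff.2 (inj ?_))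
    (Subgroup.map_comap_eq_self_of_surjective hπ S).ge
  rw [map_mul, map_mul, c _ ht]

theorem p7 (p : ℕ) [Fact p.Prime] (hp : 7 ≤ p) {K : Type*} [Group K] [Finite K]
    (π : K →* alternatingGroup (Fin (p + 5))) (hπ : Function.Surjective π) (hN : IsPGroup p π.ker)
    (h : P p K) : False := by
  have pp : p.Prime := Fact.out
  obtain ⟨x, S, o, c60, hS, c, hZ⟩ := a5x p p (Or.inr ⟨by omega, rfl⟩)
  have cop : ∀ k, (p ^ k).Coprime 60 := fun k => Nat.Coprime.pow_left _ (pp.coprime_iff_not_dvd.2 fun d => by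
    have := Nat.le_of_dvd (by norm_num) d
    interval_cases p <;> first | omega | exact absurd pp (by norm_num))
  have sψ := π.subgroupComap_surjective_of_surjective S hπ
  have iψ : (π.subgroupComap S).ker.index = 60 := by
    rw [Subgroup.index_ker, MonoidHom.range_eq_top.2 sψ, Subgroup.card_top, c60]
  have pψ : IsPGroup p (π.subgroupComap S).ker := fun g =>
    let ⟨k, hk⟩ := hN ⟨g.1.1, congrArg Subtype.val g.2⟩
    ⟨k, Subtype.ext (Subtype.ext (congrArg (Subtype.val : π.ker → K) hk :))⟩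
  obtain ⟨T, hT⟩ := Subgroup.exists_right_complement'_of_coprime (N := (π.subgroupComap S).ker) (by
    obtain ⟨k, hk⟩ := IsPGroup.iff_card.1 pψ
    rw [hk, iψ]; exact cop k)
  have cT : Nat.card (T.map (S.comap π).subtype) = 60 := by
    rw [Subgroup.card_subtype, ← hT.symm.index_eq_card, iψ]
  have mT : ∀ t ∈ T.map (S.comap π).subtype, Commute (π t) x := fun _ ⟨t, _, e⟩ => e ▸ c _ t.2
  have pP : IsPGroup p ((Subgroup.zpowers x).comap π) :=
    (IsPGroup.of_card (n := 1) (by rw [Nat.card_zpowers, o, pow_one])).comap_of_ker_isPGroup π hN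
  obtain ⟨k, rfl⟩ := hπ x
  haveI := pP.isNilpotent
  obtain ⟨d, ⟨d1, d2⟩, d3⟩ := Cfsg.Agent.S0022.result (T.map (S.comap π).subtype)
    ((Subgroup.zpowers (π k)).comap π)
    (fun t ht => Subgroup.mem_normalizer_fintype fun g hg => by
      obtain ⟨i, hi⟩ := Subgroup.mem_zpowers_iff.1 (Subgroup.mem_comap.1 hg)
      refine Subgroup.mem_comap.2 ?_
      rw [map_mul, map_mul, map_inv, ← hi, ((mT t ht).zpow_right i).eq, mul_inv_cancel_right]
      exact Subgroup.zpow_mem_zpowers _ i)
    (by obtain ⟨j, hj⟩ := IsPGroup.iff_card.1 pP; rw [cT, hj]; exact (cop j).symm)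
    (Or.inr inferInstance) π.ker (Subgroup.ker_le_comap π _) Subgroup.le_normalizer_of_normal
    Subgroup.le_normalizer_of_normal k (Subgroup.mem_zpowers _) fun a ha => by
      rw [MonoidHom.mem_ker, map_mul, map_mul, map_mul, map_inv, map_inv, (mT a ha).eq]
      group
  have e : π d = π k := by
    rw [MonoidHom.mem_ker, map_mul, map_inv, inv_mul_eq_one] at d3
    exact d3.symm
  refine p7_fin π hπ h hS hZ (c := d) (e ▸ o) ?_ (T := T.map (S.comap π).subtype)
    (fun t ht => Subgroup.mem_centralizer_singleton_iff.2 (d2 t ht)) fun s hs => ?_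
  · obtain ⟨j, hj⟩ := IsPGroup.iff_orderOf.1 pP ⟨d, d1⟩
    exact ⟨j, by rw [← hj, Subgroup.orderOf_mk]⟩
  · obtain ⟨l, hl⟩ := sψ ⟨s, hs⟩
    obtain ⟨y, hy, z, hz, rfl⟩ := Subgroup.mem_sup_of_normal_left.1 (hT.sup_eq_top.ge (Subgroup.mem_top l))
    rw [map_mul, show π.subgroupComap S y = 1 from hy, one_mul] at hl
    exact ⟨z, ⟨z, hz, rfl⟩, congrArg Subtype.val hl⟩

end H87.Spc
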