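import Mathlib
import Cfsg.Agent.Lib.SPC.Def
import Cfsg.Agent.S0022
import Cfsg.Agent.Lib.Core.Coprime

set_option autoImplicit false

namespace H87.Spc

open Subgroup
open scoped commutatorElement

theorem P.sub {p : ℕ} {K : Type*} [Group K] (h : P p K) (H : Subgroup K) : P p H := by
  intro x hx hk
  have := h x (fun k => hx (mem_center_iff.2 fun g => Subtype.ext (mem_center_iff.1 k g)))
    (by rwa [orderOf_coe])
  let f : centralizer ({x} : Set H) →* centralizer ({(x : K)} : Set K) :=
    (H.subtype.comp (centralizer ({x} : Set H)).subtype).codRestrict _ fun c =>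
      mem_centralizer_singleton_iff.2 (congrArg Subtype.val (mem_centralizer_singleton_iff.1 c.2))
  exact Group.isSolvable_of_isSolvable_injective (f := f) fun a b e =>
    Subtype.ext (Subtype.ext (congrArg (fun c : centralizer ({(x : K)} : Set K) => (c : K)) e))

theorem Quo.lift {p : ℕ} [Fact p.Prime] {K L : Type*} [Group K] [Finite K] [Group L] {f : K →* L}
    (hf : Function.Surjective f) {y : L} (hy : y ∉ center L) (hk : ∃ k : ℕ, orderOf y = p ^ k) :
    ∃ x, f x = y ∧ x ∉ center K ∧ ∃ k : ℕ, orderOf x = p ^ k := by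
  have hp : p.Prime := Fact.out
  obtain ⟨k, hk⟩ := hk
  obtain ⟨x, rfl⟩ := hf y
  obtain ⟨a, m, hm, e⟩ := Nat.exists_eq_pow_mul_and_not_dvd (orderOf_pos x).ne' p hp.ne_one
  obtain ⟨c, hc⟩ := exists_pow_eq_self_of_coprime (x := f x) (n := m)
    (hk ▸ (((Nat.Prime.coprime_iff_not_dvd hp).2 hm).symm.pow_right k))
  have e1 : f ((x ^ m) ^ c) = f x := by rw [map_pow, map_pow, hc]
  refine ⟨(x ^ m) ^ c, e1, fun z => hy (mem_center_iff.2 fun g => ?_), ?_⟩
  · obtain ⟨g, rfl⟩ := hf g
    rw [← e1, ← map_mul, ← map_mul, mem_center_iff.1 z g]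
  · obtain ⟨j, -, hj⟩ := (Nat.dvd_prime_pow hp).1 (orderOf_dvd_of_pow_eq_one (x := (x ^ m) ^ c) (n := p ^ a) (by
      rw [← pow_mul, ← pow_mul, mul_comm c, ← mul_assoc, mul_comm m, ← e, pow_mul, pow_orderOf_eq_one, one_pow]))
    exact ⟨j, hj⟩

theorem Quo.map {K L : Type*} [Group K] [Group L] (f : K →* L) (C : Subgroup K) [Group.IsSolvable C] :
    Group.IsSolvable (C.map f) := Group.isSolvable_of_surjective (f.subgroupMap_surjective C)

theorem P.quo_coprime {p : ℕ} [Fact p.Prime] {K : Type*} [Group K] [Finite K] (h : P p K)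
    (M : Subgroup K) [M.Normal] (hM : (Nat.card M).Coprime p) : P p (K ⧸ M) := by
  intro y hy hk
  obtain ⟨x, rfl, hx, k, hk⟩ := Quo.lift (QuotientGroup.mk'_surjective M) hy hk
  have := h x hx ⟨k, hk⟩
  have e := H2.map_centralizer_of_surjective (A := zpowers x) (QuotientGroup.mk' M) (QuotientGroup.mk'_surjective M)
    (by rw [QuotientGroup.ker_mk', Nat.card_zpowers, hk]; exact hM.symm.pow_left k) (Or.inl inferInstance)
  rw [MonoidHom.map_zpowers, zpowers_eq_closure, zpowers_eq_closure, centralizer_closure, centralizer_closure] at e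
  exact e ▸ Quo.map _ _

theorem P.quo_central {p : ℕ} [Fact p.Prime] {K : Type*} [Group K] [Finite K] (h : P p K)
    (M : Subgroup K) [M.Normal] (hM : M ≤ Subgroup.center K) : P p (K ⧸ M) := by
  intro y hy hk
  obtain ⟨x, rfl, hx, hk⟩ := Quo.lift (QuotientGroup.mk'_surjective M) hy hk
  have := h x hx hk
  set C := (centralizer ({QuotientGroup.mk' M x} : Set (K ⧸ M))).comap (QuotientGroup.mk' M) with hC
  have cz : ∀ c : C, ⁅(c : K), x⁆ ∈ center K := fun c => hM (by
    rw [← QuotientGroup.eq_one_iff, ← QuotientGroup.mk'_apply, map_commutatorElement,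
      commutatorElement_eq_one_iff_mul_comm]
    exact mem_centralizer_singleton_iff.1 c.2)
  let φ : C →* center K := MonoidHom.mk' (fun c => ⟨_, cz c⟩) fun c d => Subtype.ext (by
    have := mem_center_iff.1 (cz d)
    show ⁅(c : K) * d, x⁆ = ⁅(c : K), x⁆ * ⁅(d : K), x⁆
    calc ⁅(c : K) * d, x⁆ = c * ⁅(d : K), x⁆ * (x * (c : K)⁻¹ * x⁻¹) := by
          simp only [commutatorElement_def]; group
      _ = c * (x * (c : K)⁻¹ * x⁻¹) * ⁅(d : K), x⁆ := by rw [mul_assoc, ← this, ← mul_assoc]
      _ = _ := by simp only [commutatorElement_def]; group)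
  have le : centralizer ({x} : Set K) ≤ C := fun c hc => mem_centralizer_singleton_iff.2 (by
    rw [← map_mul, ← map_mul, mem_centralizer_singleton_iff.1 hc])
  have : Group.IsSolvable (center K) := Group.isSolvable_of_comm fun a b => Subtype.ext (mem_center_iff.1 b.2 a)
  have : Group.IsSolvable C := Group.isSolvable_of_ker_le_range (inclusion le) φ fun c hc =>
    ⟨⟨c, mem_centralizer_singleton_iff.2 (commutatorElement_eq_one_iff_mul_comm.1 (congrArg Subtype.val hc))⟩, rfl⟩
  rw [← map_comap_eq_self_of_surjective (QuotientGroup.mk'_surjective M) (centralizer _)]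
  exact Quo.map _ _

end H87.Spc
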