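import Mathlib
import Cfsg.Prelude.Def_LocalEven
import Cfsg.Agent.Lib.SPC.Quo

set_option autoImplicit false

namespace H87.Spc

universe u

theorem red_aux (p : ℕ) [hp' : Fact p.Prime] {A : Type*} [Group A]
    (hp : ∀ (K : Type u) [Group K] [Finite K] (π : K →* A), Function.Surjective π → IsPGroup p π.ker →
      π.ker ⊓ Subgroup.center K = ⊥ → P p K → False) (n : ℕ) :
    ∀ (K : Type u) [Group K] [Finite K], Nat.card K = n → ∀ π : K →* A, Function.Surjective π →
      P p K → False := by
  induction n using Nat.strong_induction_on with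
  | _ n ih =>
  intro K _ _ hn π hπ h
  have quo : ∀ (M : Subgroup K) [M.Normal], M ≤ π.ker → M ≠ ⊥ → P p (K ⧸ M) → False := by
    intro M _ hM h1 h2
    refine ih _ ?_ (K ⧸ M) rfl (QuotientGroup.lift M π hM) (fun a => ?_) h2
    · rw [← hn, M.card_eq_card_quotient_mul_card_subgroup]
      exact lt_mul_of_one_lt_right Nat.card_pos (M.one_lt_card_iff_ne_bot.2 h1)
    · obtain ⟨k, rfl⟩ := hπ a
      exact ⟨k, rfl⟩
  have sub : ∀ H : Subgroup K, H ⊔ π.ker = ⊤ → H = ⊤ := by
    intro H hH
    by_contra hne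
    refine ih _ ?_ H rfl (π.comp H.subtype) (fun a => ?_) (h.sub H)
    · rw [← hn, ← H.card_mul_index]
      exact lt_mul_of_one_lt_right Nat.card_pos (Subgroup.one_lt_index_of_ne_top hne)
    · obtain ⟨k, rfl⟩ := hπ a
      obtain ⟨y, hy, z, hz, rfl⟩ := Subgroup.mem_sup_of_normal_right.1 (hH.ge (Subgroup.mem_top k))
      exact ⟨⟨y, hy⟩, by rw [map_mul, show π z = 1 from hz, mul_one]; rfl⟩
  have hN : IsPGroup p π.ker := by
    refine IsPGroup.of_card (Nat.eq_prime_pow_of_unique_prime_dvd Nat.card_pos.ne' fun {q} hq hd => ?_)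
    by_contra hne
    haveI := Fact.mk hq
    obtain ⟨Q⟩ : Nonempty (Sylow q π.ker) := inferInstance
    haveI : ((Q : Subgroup π.ker).map π.ker.subtype).Normal :=
      Subgroup.normalizer_eq_top_iff.1 (sub _ Q.normalizer_sup_eq_top)
    refine quo ((Q : Subgroup π.ker).map π.ker.subtype) (Subgroup.map_subtype_le _)
      (fun e => Q.ne_bot_of_dvd_card hd ?_) (h.quo_coprime _ ?_)
    · exact (Subgroup.map_eq_bot_iff_of_injective _ π.ker.subtype_injective).1 e
    · obtain ⟨k, hk⟩ := IsPGroup.iff_card.1 (Q.isPGroup'.map π.ker.subtype)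
      rw [hk]
      exact Nat.Coprime.pow_left _ ((Nat.coprime_primes hq hp'.out).2 hne)
  by_cases hZ : π.ker ⊓ Subgroup.center K = ⊥
  · exact hp K π hπ hN hZ h
  · exact quo _ inf_le_left hZ (h.quo_central _ inf_le_right)

theorem red (p : ℕ) [Fact p.Prime] {A : Type*} [Group A]
    (hp : ∀ (K : Type u) [Group K] [Finite K] (π : K →* A), Function.Surjective π → IsPGroup p π.ker →
      π.ker ⊓ Subgroup.center K = ⊥ → P p K → False)
    (K : Type u) [Group K] [Finite K] (π : K →* A) (hπ : Function.Surjective π) (h : P p K) : False :=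
  red_aux p hp _ K rfl π hπ h

theorem inv {G : Type*} [Group G] {n d : ℕ} (hnd : n ≤ d)
    (h : Cfsg.Involves (alternatingGroup (Fin d)) G) :
    ∃ (K : Subgroup G) (π : K →* alternatingGroup (Fin n)), Function.Surjective π := by
  classical
  obtain ⟨K, R, _, ⟨e⟩⟩ := h
  let π0 : K →* alternatingGroup (Fin d) := e.toMonoidHom.comp (QuotientGroup.mk' _)
  have s0 : Function.Surjective π0 := e.surjective.comp (QuotientGroup.mk'_surjective _)
  let f := Equiv.ofInjective (Fin.castLE hnd) (Fin.castLE_injective hnd)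
  let ι : alternatingGroup (Fin n) →* alternatingGroup (Fin d) :=
    ((Equiv.Perm.extendDomainHom f).comp (alternatingGroup (Fin n)).subtype).codRestrict _ fun a => by
      rw [Equiv.Perm.mem_alternatingGroup]
      exact (Equiv.Perm.sign_extendDomain a.1 f).trans (Equiv.Perm.mem_alternatingGroup.1 a.2)
  have hι : Function.Injective ι := fun a b h =>
    Subtype.ext (Equiv.Perm.extendDomainHom_injective f (congrArg Subtype.val h))
  let ψ : ι.range.comap π0 →* ι.range := π0.subgroupComap ι.range
  refine ⟨(ι.range.comap π0).map K.subtype, (MonoidHom.ofInjective hι).symm.toMonoidHom.comp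
    (ψ.comp ((ι.range.comap π0).equivMapOfInjective K.subtype K.subtype_injective).symm.toMonoidHom), ?_⟩
  exact (MonoidHom.ofInjective hι).symm.surjective.comp
    ((π0.subgroupComap_surjective_of_surjective _ s0).comp (MulEquiv.surjective _))

end H87.Spc
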